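import Mathlib
import Cfsg.Agent.H897.T5Lat

/-!
# Stabilisers of classes modulo `p` of the root lattice: two root lengths (S3826)

`R` is an orbit of short roots (norm `2`) spanning the root lattice.
`mem_VV_of_rep` : if `w μ ≡ μ` modulo `p` then `w` is a product of reflections in roots `β` with `p ∣ ⟨μ, β⟩`.
-/

set_option autoImplicit false
set_option linter.unusedSectionVars false

namespace Cfsg.Agent.H897.T5LatS

open CoxeterSystem Cfsg.Agent.ChevalleyStructure.CoxeterGeom Cfsg.Agent.Tits.Roots Cfsg.Agent.Tits.Core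
  Cfsg.Agent.Tits.RootComb Cfsg.Agent.Nodes.Comb Cfsg.Agent.Nodes.Reps Cfsg.Agent.Nodes.SubComb
  Cfsg.Agent.Nodes.Coroot Cfsg.Agent.Nodes.SimplyLaced Cfsg.Agent.Nodes.StabComb
open Cfsg.Agent.H897.T5Lat (VV VV_congr Min mem_VV_of_fix bf bf_apply)

variable {I W : Type*} [Fintype I] [DecidableEq I] [Group W] {M : CoxeterMatrix I}
  (cs : CoxeterSystem M W) {A : I → I → ℤ} (h : IsCartan M A)

/-- A form for which the roots of the spanning set `R` have norm `2`. -/
structure FrmS (B : LinearMap.BilinForm ℤ (I → ℤ)) (R : (I → ℤ) → Prop) : Prop where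
  symm : ∀ x y, B x y = B y x
  pos : ∀ x, x ≠ 0 → 0 < B x x
  inv : ∀ (w : W) x y, B (rep cs h w x) (rep cs h w y) = B x y
  root : ∀ x, R x → IsRoot cs h x
  act : ∀ (w : W) x, R x → R (rep cs h w x)
  self : ∀ x, R x → B x x = 2
  mult : ∀ x y, IsRoot cs h y → 2 * B x y = B y y * Cfsg.Agent.Nodes.Coroot.cpr cs h x y
  span : ∀ i, ∃ L : List (I → ℤ), (∀ y ∈ L, R y) ∧ L.sum = sr i

variable {cs h} {B : LinearMap.BilinForm ℤ (I → ℤ)} {R : (I → ℤ) → Prop}

namespace FrmS

variable [Finite W] (F : FrmS cs h B R)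
include F

theorem cpr {x y : I → ℤ} (hy : R y) : B x y = Cfsg.Agent.Nodes.Coroot.cpr cs h x y := by
  have h1 := F.mult x y (F.root y hy)
  rw [F.self y hy] at h1
  linarith

theorem refl {x y : I → ℤ} (hx : R x) (hy : R y) : R (x - Cfsg.Agent.Nodes.Coroot.cpr cs h x y • y) := by
  obtain ⟨w, i, rfl⟩ := F.root y hy
  have h1 := F.act (rfl' cs w i) x hx
  rwa [rep_rfl'_eq] at h1

theorem neg {x : I → ℤ} (hx : R x) : R (-x) := by
  have h1 := F.refl hx hx
  rw [cpr_self cs h (F.root x hx), two_smul] at h1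
  have h2 : x - (x + x) = -x := by abel
  rwa [h2] at h1

/-- the norm of a sum -/
theorem norm_add (x y : I → ℤ) : B (x + y) (x + y) = B x x + 2 * B x y + B y y := by
  simp only [map_add, LinearMap.add_apply]
  rw [F.symm y x]
  ring

theorem norm_sub_smul (x y : I → ℤ) (m : ℤ) : B (x - m • y) (x - m • y) = B x x - 2 * m * B x y + m * m * B y y := by
  rw [sub_eq_add_neg, F.norm_add]
  simp only [map_neg, LinearMap.neg_apply, map_smul, LinearMap.smul_apply, smul_eq_mul]
  ring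

theorem sl {x y : I → ℤ} (hx : R x) (hy : R y) (h1 : x ≠ y) (h2 : x ≠ -y) : |B x y| ≤ 1 := by
  have h3 := F.pos (x + y) (fun h0 => h2 (eq_neg_of_add_eq_zero_left h0))
  have h4 := F.pos (x - y) (sub_ne_zero.2 h1)
  rw [F.norm_add, F.self x hx, F.self y hy] at h3
  have h5 := F.norm_sub_smul x y 1
  rw [one_smul, F.self x hx, F.self y hy] at h5
  rw [h5] at h4
  rw [abs_le]
  constructor <;> omega

theorem nonneg (x : I → ℤ) : 0 ≤ B x x := by
  by_cases hx : x = 0
  · rw [hx, map_zero]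
  · exact (F.pos x hx).le

theorem eq_zero {x : I → ℤ} (hx : B x x ≤ 0) : x = 0 := by
  by_contra hcon
  exact absurd (F.pos x hcon) (not_lt.2 hx)

theorem sum_nonneg (x : I → ℤ) : ∀ L : List (I → ℤ), (∀ y ∈ L, 0 ≤ B x y) → 0 ≤ B x L.sum
  | [], _ => by rw [List.sum_nil, map_zero]
  | y :: L, hL => by
    rw [List.sum_cons, map_add]
    exact add_nonneg (hL y List.mem_cons_self) (sum_nonneg x L fun z hz => hL z (List.mem_cons_of_mem _ hz))

theorem sum_le (x : I → ℤ) (c : ℤ) : ∀ L : List (I → ℤ), (∀ y ∈ L, B x y ≤ c) → B x L.sum ≤ c * L.length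
  | [], _ => by rw [List.sum_nil, map_zero]; simp
  | y :: L, hL => by
    rw [List.sum_cons, map_add, List.length_cons]
    have h1 := hL y List.mem_cons_self
    have h2 := sum_le x c L fun z hz => hL z (List.mem_cons_of_mem _ hz)
    push_cast
    linarith

/-- Sums of roots without obtuse pairs are long. -/
theorem norm_sum : ∀ L : List (I → ℤ), (∀ x ∈ L, R x) → L.Pairwise (fun x y => 0 ≤ B x y) →
    2 * (L.length : ℤ) ≤ B L.sum L.sum
  | [], _, _ => by rw [List.sum_nil, map_zero]; simp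
  | x :: L, hL, hP => by
    rw [List.pairwise_cons] at hP
    rw [List.sum_cons, F.norm_add, F.self _ (hL x List.mem_cons_self), List.length_cons]
    have h1 := norm_sum L (fun z hz => hL z (List.mem_cons_of_mem _ hz)) hP.2
    have h2 := F.sum_nonneg x L hP.1
    push_cast
    linarith

/-- Every sum of roots is a sum of at most as many roots without obtuse pairs. -/
theorem exists_pairwise : ∀ (n : ℕ) (L : List (I → ℤ)), L.length ≤ n → (∀ x ∈ L, R x) →
    ∃ L' : List (I → ℤ), L'.length ≤ L.length ∧ (∀ x ∈ L', R x) ∧ L'.sum = L.sum ∧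
      L'.Pairwise (fun x y => 0 ≤ B x y) := by
  intro n
  induction n with
  | zero =>
    intro L hL _
    have h0 : L = [] := List.length_eq_zero_iff.1 (Nat.le_zero.1 hL)
    subst h0
    exact ⟨[], le_refl _, by simp, rfl, List.Pairwise.nil⟩
  | succ n ih =>
    intro L hL hR
    rcases L with _ | ⟨x, L1⟩
    · exact ⟨[], le_refl _, by simp, rfl, List.Pairwise.nil⟩
    rw [List.length_cons] at hL
    obtain ⟨L2, hl, hr, hs, hp⟩ := ih L1 (by omega) fun z hz => hR z (List.mem_cons_of_mem _ hz)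
    have hx := hR x List.mem_cons_self
    by_cases hall : ∀ y ∈ L2, 0 ≤ B x y
    · refine ⟨x :: L2, ?_, ?_, ?_, List.pairwise_cons.2 ⟨hall, hp⟩⟩
      · rw [List.length_cons, List.length_cons]; omega
      · intro z hz
        rcases List.mem_cons.1 hz with rfl | hz
        · exact hx
        · exact hr z hz
      · rw [List.sum_cons, List.sum_cons, hs]
    · push Not at hall
      obtain ⟨y, hy, hxy⟩ := hall
      have hyr := hr y hy
      obtain ⟨L3, hL3⟩ : ∃ L3, L2.Perm (y :: L3) := ⟨_, List.perm_cons_erase hy⟩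
      have hlen : L2.length = L3.length + 1 := by rw [hL3.length_eq, List.length_cons]
      have hsum : L2.sum = y + L3.sum := by rw [hL3.sum_eq, List.sum_cons]
      have hr3 : ∀ z ∈ L3, R z := fun z hz => hr z (hL3.mem_iff.2 (List.mem_cons_of_mem _ hz))
      by_cases hxy' : x = -y
      · -- cancel
        obtain ⟨L4, h1, h2, h3, h4⟩ := ih L3 (by omega) hr3
        refine ⟨L4, ?_, h2, ?_, h4⟩
        · rw [List.length_cons]; omega
        · rw [h3, List.sum_cons, ← hs, hsum, hxy']; abel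
      · have hne : x ≠ y := by
          rintro rfl
          rw [F.self _ hx] at hxy
          omega
        have hc := F.sl hx hyr hne hxy'
        rw [F.cpr hyr] at hxy hc
        have hc1 : Cfsg.Agent.Nodes.Coroot.cpr cs h x y = -1 := by
          rw [abs_le] at hc
          omega
        have h1 := F.refl hx hyr
        rw [hc1] at h1
        have h2 : x - (-1 : ℤ) • y = x + y := by rw [neg_smul, one_smul, sub_neg_eq_add]
        rw [h2] at h1
        obtain ⟨L4, h3, h4, h5, h6⟩ := ih ((x + y) :: L3) (by rw [List.length_cons]; omega) (by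
          intro z hz
          rcases List.mem_cons.1 hz with rfl | hz
          · exact h1
          · exact hr3 z hz)
        refine ⟨L4, ?_, h4, ?_, h6⟩
        · rw [List.length_cons] at h3 ⊢; omega
        · rw [h5, List.sum_cons, List.sum_cons, ← hs, hsum, add_assoc]

theorem sum_neg : ∀ L : List (I → ℤ), (∀ y ∈ L, R y) → ∃ L' : List (I → ℤ), (∀ y ∈ L', R y) ∧ L'.sum = -L.sum
  | [], _ => ⟨[], by simp, by simp⟩
  | y :: L, hL => by
    obtain ⟨L', h1, h2⟩ := sum_neg L fun z hz => hL z (List.mem_cons_of_mem _ hz)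
    refine ⟨-y :: L', fun z hz => ?_, by rw [List.sum_cons, List.sum_cons, h2]; abel⟩
    rcases List.mem_cons.1 hz with rfl | hz
    · exact F.neg (hL y List.mem_cons_self)
    · exact h1 z hz

omit F in
theorem sum_smul {L : List (I → ℤ)} (hL : ∀ y ∈ L, R y) : ∀ n : ℕ, ∃ L' : List (I → ℤ), (∀ y ∈ L', R y) ∧
    L'.sum = (n : ℤ) • L.sum
  | 0 => ⟨[], by simp, by simp⟩
  | n + 1 => by
    obtain ⟨L', h1, h2⟩ := sum_smul hL n
    refine ⟨L ++ L', fun y hy => ?_, ?_⟩
    · rcases List.mem_append.1 hy with hy | hy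
      · exact hL y hy
      · exact h1 y hy
    · rw [List.sum_append, h2]
      push_cast
      rw [add_smul, one_smul, add_comm]

theorem sum_sr_list : ∀ (s : List I) (x : I → ℤ), ∃ L : List (I → ℤ), (∀ y ∈ L, R y) ∧
    L.sum = (s.map fun i => x i • sr i).sum
  | [], _ => ⟨[], by simp, rfl⟩
  | i :: s, x => by
    obtain ⟨L, h1, h2⟩ := sum_sr_list s x
    obtain ⟨Li, hi1, hi2⟩ := F.span i
    obtain ⟨L', h3, h4⟩ : ∃ L' : List (I → ℤ), (∀ y ∈ L', R y) ∧ L'.sum = x i • sr i := by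
      rcases Int.eq_nat_or_neg (x i) with ⟨n, hn | hn⟩
      · obtain ⟨L', h3, h4⟩ := sum_smul hi1 n
        exact ⟨L', h3, by rw [h4, hi2, hn]⟩
      · obtain ⟨L', h3, h4⟩ := sum_smul hi1 n
        obtain ⟨L'', h5, h6⟩ := F.sum_neg L' h3
        exact ⟨L'', h5, by rw [h6, h4, hi2, hn, neg_smul]⟩
    refine ⟨L' ++ L, fun y hy => ?_, ?_⟩
    · rcases List.mem_append.1 hy with hy | hy
      · exact h3 y hy
      · exact h1 y hy
    · rw [List.sum_append, h4, h2, List.map_cons, List.sum_cons]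

/-- Every vector is a sum of short roots. -/
theorem exists_list (x : I → ℤ) : ∃ L : List (I → ℤ), (∀ y ∈ L, R y) ∧ L.sum = x := by
  obtain ⟨L, h1, h2⟩ := F.sum_sr_list (Finset.univ : Finset I).toList x
  refine ⟨L, h1, ?_⟩
  rw [h2, Finset.sum_map_toList]
  exact (eq_sum_sr x).symm

end FrmS

section Main

variable [Finite W] (F : FrmS cs h B R) {p : ℕ}
include F

theorem min_le {μ : I → ℤ} (hp : 0 < p) (hμ : Min B p μ) {β : I → ℤ} (hβ : R β) : B μ β ≤ p := by
  have h1 := hμ β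
  rw [F.norm_sub_smul, F.self _ hβ] at h1
  have hp' : (0 : ℤ) < p := by exact_mod_cast hp
  by_contra hcon
  push Not at hcon
  nlinarith

/-- The step towards another minimal vector. -/
theorem exists_step (hp : 0 < p) {μ ν : I → ℤ} (hμ : Min B p μ) (hμν : Min B p (μ - (p : ℤ) • ν)) (hν : ν ≠ 0) :
    ∃ β, R β ∧ B μ β = p ∧ B ν β = 2 := by
  have hp' : (0 : ℤ) < p := by exact_mod_cast hp
  obtain ⟨L0, hR0, hs0⟩ := F.exists_list ν
  obtain ⟨L, -, hR, hs, hP⟩ := F.exists_pairwise L0.length L0 (le_refl _) hR0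
  rw [hs0] at hs
  rcases L with _ | ⟨β, L⟩
  · exact absurd hs.symm hν
  rw [List.pairwise_cons] at hP
  have hβ := hR β List.mem_cons_self
  have hR' : ∀ x ∈ L, R x := fun z hz => hR z (List.mem_cons_of_mem _ hz)
  rw [List.sum_cons] at hs
  -- the norms
  have h1 : (p : ℤ) * B ν ν = 2 * B μ ν := by
    have h2 := hμ ν
    have h3 := hμν (-ν)
    have h4 : μ - (p : ℤ) • ν - (p : ℤ) • (-ν) = μ := by rw [smul_neg]; abel
    rw [h4] at h3
    have h5 := le_antisymm h2 h3
    rw [F.norm_sub_smul] at h5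
    have h6 : (p : ℤ) * ((p : ℤ) * B ν ν - 2 * B μ ν) = 0 := by linarith
    rcases mul_eq_zero.1 h6 with h7 | h7
    · omega
    · linarith
  have h2 := F.norm_sum L hR' hP.2
  have h3 : B ν ν = 2 + 2 * B β L.sum + B L.sum L.sum := by rw [← hs, F.norm_add, F.self _ hβ]
  have h4 : B μ ν = B μ β + B μ L.sum := by rw [← hs, map_add]
  have h5 := F.sum_le μ p L fun y hy => min_le F hp hμ (hR' y hy)
  have h6 := min_le F hp hμ hβ
  have h7 := F.sum_nonneg β L hP.1
  have h8 : (p : ℤ) * B β L.sum ≤ 0 := by nlinarith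
  have h9 : B β L.sum = 0 := by
    by_contra hcon
    have : 0 < B β L.sum := lt_of_le_of_ne h7 (Ne.symm hcon)
    nlinarith
  refine ⟨β, hβ, ?_, ?_⟩
  · rw [h9] at h3
    nlinarith
  · rw [← hs, F.symm, map_add, F.self _ hβ, h9, add_zero]

/-- **Minimal vectors of a class are conjugate.** -/
theorem trans (hp : 0 < p) : ∀ (n : ℕ) {μ ν : I → ℤ}, Min B p μ → Min B p (μ - (p : ℤ) • ν) → B ν ν ≤ n →
    ∃ v ∈ VV cs h p μ, rep cs h v μ = μ - (p : ℤ) • ν := by
  intro n
  induction n with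
  | zero =>
    intro μ ν _ _ hn
    have h0 := F.eq_zero hn
    refine ⟨1, one_mem _, ?_⟩
    rw [map_one, Module.End.one_apply, h0, smul_zero, sub_zero]
  | succ n ih =>
    intro μ ν hμ hμν hn
    by_cases hν : ν = 0
    · refine ⟨1, one_mem _, ?_⟩
      rw [map_one, Module.End.one_apply, hν, smul_zero, sub_zero]
    obtain ⟨β, hβ, h1, h2⟩ := exists_step F hp hμ hμν hν
    obtain ⟨w, i, rfl⟩ := F.root _ hβ
    obtain ⟨β, hβe⟩ : ∃ β, β = rep cs h w (sr i) := ⟨_, rfl⟩
    have h3 : rep cs h (rfl' cs w i) μ = μ - (p : ℤ) • β := by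
      rw [rep_rfl'_eq, ← F.cpr hβ, h1, hβe]
    have hmem : rfl' cs w i ∈ VV cs h p μ := by
      refine Subgroup.subset_closure ⟨w, i, ?_, rfl⟩
      rw [← F.cpr hβ, h1]
    have hmin : Min B p (μ - (p : ℤ) • β) := by
      intro l
      have h4 : B (μ - (p : ℤ) • β) (μ - (p : ℤ) • β) = B μ μ := by rw [← h3, F.inv]
      rw [h4, sub_sub, ← smul_add]
      exact hμ _
    have h5 : μ - (p : ℤ) • β - (p : ℤ) • (ν - β) = μ - (p : ℤ) • ν := by rw [smul_sub]; abel
    obtain ⟨v, hv, hv1⟩ := ih (μ := μ - (p : ℤ) • β) (ν := ν - β) hmin (by rw [h5]; exact hμν) (by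
      have h6 := F.norm_sub_smul ν β 1
      rw [one_smul] at h6
      rw [h6, hβe, h2, F.self _ hβ]
      push_cast at hn
      linarith)
    rw [VV_congr] at hv
    refine ⟨v * rfl' cs w i, mul_mem hv hmem, ?_⟩
    rw [rep_mul_apply, h3, hv1, h5]

/-- every class has a minimal vector -/
theorem exists_min (p : ℕ) (μ : I → ℤ) : ∃ l, Min B p (μ - (p : ℤ) • l) := by
  obtain ⟨l, hl⟩ : ∃ l : I → ℤ, ∀ l' : I → ℤ, (B (μ - (p : ℤ) • l) (μ - (p : ℤ) • l)).toNat ≤
      (B (μ - (p : ℤ) • l') (μ - (p : ℤ) • l')).toNat :=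
    ⟨_, fun l' => Function.argmin_le (fun l : I → ℤ => (B (μ - (p : ℤ) • l) (μ - (p : ℤ) • l)).toNat) l'⟩
  refine ⟨l, fun l' => ?_⟩
  have h1 := hl (l + l')
  have h2 : μ - (p : ℤ) • l - (p : ℤ) • l' = μ - (p : ℤ) • (l + l') := by rw [smul_add]; abel
  rw [h2]
  have h3 := F.nonneg (μ - (p : ℤ) • l)
  have h4 := F.nonneg (μ - (p : ℤ) • (l + l'))
  omega

/-- **An isometry fixing the class of `μ` fixes a minimal vector of the class, up to reflections.** -/
theorem exists_fix (hp : 0 < p) {θ : (I → ℤ) → I → ℤ} (hθ : ∀ x, B (θ x) (θ x) = B x x)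
    (hsub : ∀ x l, ∃ l', θ (x - (p : ℤ) • l) = θ x - (p : ℤ) • l')
    (hsub' : ∀ x l, ∃ l', θ l' = l ∧ θ (x - (p : ℤ) • l') = θ x - (p : ℤ) • l)
    {μ l0 : I → ℤ} (hμ : θ μ = μ - (p : ℤ) • l0) :
    ∃ l, Min B p (μ - (p : ℤ) • l) ∧ ∃ v ∈ VV cs h p μ, rep cs h v (θ (μ - (p : ℤ) • l)) = μ - (p : ℤ) • l := by
  obtain ⟨l, hl⟩ := exists_min F p μ
  refine ⟨l, hl, ?_⟩
  obtain ⟨l1, h1⟩ := hsub μ l
  -- `θ` of the minimal vector is minimal
  have hmin : Min B p (θ (μ - (p : ℤ) • l)) := by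
    intro l2
    obtain ⟨l3, -, h3⟩ := hsub' (μ - (p : ℤ) • l) l2
    rw [← h3, hθ, hθ]
    exact hl l3
  have h2 : μ - (p : ℤ) • l = θ (μ - (p : ℤ) • l) - (p : ℤ) • (l - l0 - l1) := by
    rw [h1, hμ, smul_sub, smul_sub]; abel
  have hn : B (l - l0 - l1) (l - l0 - l1) ≤ ((B (l - l0 - l1) (l - l0 - l1)).toNat : ℤ) := by
    rw [Int.toNat_of_nonneg (F.nonneg _)]
  obtain ⟨v, hv, hv1⟩ := trans F hp _ hmin (by rw [← h2]; exact hl) hn
  refine ⟨v, ?_, ?_⟩
  · have h3 : VV cs h p (θ (μ - (p : ℤ) • l)) = VV cs h p μ := by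
      have h4 : θ (μ - (p : ℤ) • l) = μ - (p : ℤ) • (l0 + l1) := by rw [h1, hμ, smul_add]; abel
      rw [h4, VV_congr]
    rwa [h3] at hv
  · rw [hv1, ← h2]

/-- **The stabiliser of a class modulo `p` is generated by reflections.** -/
theorem mem_VV_of_rep (hp : 0 < p) {w : W} {μ l0 : I → ℤ} (hw : rep cs h w μ = μ - (p : ℤ) • l0) :
    w ∈ VV cs h p μ := by
  obtain ⟨l, hl, v, hv, hv1⟩ := exists_fix F hp (θ := fun x => rep cs h w x) (fun x => F.inv w x x)
    (fun x l => ⟨rep cs h w l, by rw [map_sub, map_smul]⟩)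
    (fun x l => ⟨rep cs h w⁻¹ l, rep_apply_inv cs h w l, by
      show rep cs h w (x - (p : ℤ) • rep cs h w⁻¹ l) = _
      rw [map_sub, map_smul, rep_apply_inv]⟩) hw
  have h1 : v * w ∈ VV cs h p (μ - (p : ℤ) • l) := mem_VV_of_fix (by rw [rep_mul_apply]; exact hv1)
  rw [VV_congr] at h1
  have h2 : w = v⁻¹ * (v * w) := by group
  rw [h2]
  exact mul_mem (inv_mem hv) h1

end Main

end Cfsg.Agent.H897.T5LatS
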