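import Mathlib
import Cfsg.Agent.H897.T5LatS
import Cfsg.Agent.H897.T5Conn

/-!
# The form of a symmetrised Cartan matrix (S3826)
-/

set_option autoImplicit false
set_option linter.unusedSectionVars false

namespace Cfsg.Agent.H897.T5FormS

open CoxeterSystem Cfsg.Agent.ChevalleyStructure.CoxeterGeom Cfsg.Agent.Tits.Roots Cfsg.Agent.Tits.Core
  Cfsg.Agent.Tits.RootComb Cfsg.Agent.Nodes.Comb Cfsg.Agent.Nodes.Reps Cfsg.Agent.Nodes.SubComb
  Cfsg.Agent.Nodes.Coroot Cfsg.Agent.Nodes.SimplyLaced Cfsg.Agent.Nodes.StabComb Cfsg.Agent.H897.T5LatS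
open Cfsg.Agent.H897.T5Lat (VV VV_congr Min mem_VV_of_fix bf bf_apply)

variable {I W : Type*} [Fintype I] [DecidableEq I] [Group W] {M : CoxeterMatrix I}
  (cs : CoxeterSystem M W) {A : I → I → ℤ} (h : IsCartan M A)

/-- A symmetrised Cartan matrix `S`, with `S s0 s0 = 2`; `par` leads to `s0` along edges. -/
structure SymC (A S : I → I → ℤ) (s0 : I) (par : I → I) (n : ℕ) : Prop where
  symm : ∀ i j, S i j = S j i
  car : ∀ i j, 2 * S j i = S j j * A j i
  pos : ∀ i, 0 < S i i
  adj : ∀ j, j = s0 ∨ A j (par j) ≠ 0
  lead : ∀ j, par^[n] j = s0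
  two : S s0 s0 = 2

theorem bf_sr (S : I → I → ℤ) (i j : I) : bf S (sr i) (sr j) = S i j := by
  rw [bf_apply, Finset.sum_eq_single i]
  · rw [Finset.sum_eq_single j]
    · rw [sr_self, sr_self, one_mul, mul_one]
    · intro b _ hb; rw [sr_ne hb, mul_zero]
    · intro hj; exact absurd (Finset.mem_univ j) hj
  · intro b _ hb
    refine Finset.sum_eq_zero fun c _ => ?_
    rw [sr_ne hb, zero_mul, zero_mul]
  · intro hj; exact absurd (Finset.mem_univ i) hj

theorem pairing_sr (A : I → I → ℤ) (i j : I) : pairing A i (sr j) = A i j := by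
  rw [sr, pairing_single, mul_one]

namespace SymC

variable {S : I → I → ℤ} {s0 : I} {par : I → I} {n : ℕ} (H : SymC A S s0 par n)
include H

theorem two_form [Fintype W] (x : I → ℤ) (j : I) : 2 * form cs h x (sr j) = pairing A j x * form cs h (sr j) (sr j) := by
  rw [two_form_cpr cs h x (isRoot_sr cs h j), cpr_sr]

theorem step [Fintype W] {i j : I} (hij : A j i ≠ 0) :
    form cs h (sr j) (sr j) * S i i = form cs h (sr i) (sr i) * S j j := by
  have h1 := H.two_form cs h (sr i) j
  have h2 := H.two_form cs h (sr j) i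
  rw [pairing_sr] at h1 h2
  rw [form_comm, h1] at h2
  have h3 : S j j * A j i = S i i * A i j := by rw [← H.car, ← H.car, H.symm i j]
  have h4 : A j i * (form cs h (sr j) (sr j) * S i i) = A j i * (form cs h (sr i) (sr i) * S j j) := by
    calc A j i * (form cs h (sr j) (sr j) * S i i) = (A j i * form cs h (sr j) (sr j)) * S i i := by ring
      _ = (A i j * form cs h (sr i) (sr i)) * S i i := by rw [h2]
      _ = (S i i * A i j) * form cs h (sr i) (sr i) := by ring
      _ = (S j j * A j i) * form cs h (sr i) (sr i) := by rw [h3]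
      _ = _ := by ring
  exact mul_left_cancel₀ hij h4

theorem len [Fintype W] (j : I) : form cs h (sr j) (sr j) * 2 = form cs h (sr s0) (sr s0) * S j j := by
  have key : ∀ (m : ℕ) (j : I), par^[m] j = s0 →
      form cs h (sr j) (sr j) * 2 = form cs h (sr s0) (sr s0) * S j j := by
    intro m
    induction m with
    | zero =>
      intro j hj
      have hj' : j = s0 := hj
      rw [hj', H.two]
    | succ m ih =>
      intro j hj
      rw [Function.iterate_succ_apply] at hj
      have h1 := ih _ hj
      rcases H.adj j with h2 | h2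
      · rw [h2, H.two]
      · have h3 := H.step cs h h2
        have h4 := H.pos (par j)
        have h5 : S (par j) (par j) * (form cs h (sr j) (sr j) * 2) =
            S (par j) (par j) * (form cs h (sr s0) (sr s0) * S j j) := by
          calc S (par j) (par j) * (form cs h (sr j) (sr j) * 2)
              = (form cs h (sr j) (sr j) * S (par j) (par j)) * 2 := by ring
            _ = (form cs h (sr (par j)) (sr (par j)) * S j j) * 2 := by rw [h3]
            _ = (form cs h (sr (par j)) (sr (par j)) * 2) * S j j := by ring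
            _ = (form cs h (sr s0) (sr s0) * S (par j) (par j)) * S j j := by rw [h1]
            _ = _ := by ring
        exact mul_left_cancel₀ h4.ne' h5
  exact key n j (H.lead j)

theorem form_eq [Fintype W] (x y : I → ℤ) : 2 * form cs h x y = bf S x y * form cs h (sr s0) (sr s0) := by
  obtain ⟨c0, hc0⟩ : ∃ c0, c0 = form cs h (sr s0) (sr s0) := ⟨_, rfl⟩
  rw [← hc0]
  have h1 : ∀ i, 2 * form cs h x (sr i) = bf S x (sr i) * c0 := by
    intro i
    have h2 := H.two_form cs h x i
    have h3 := H.len cs h i
    rw [← hc0] at h3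
    have h4 : 2 * bf S x (sr i) = S i i * pairing A i x := by
      rw [bf_apply, pairing, Finset.mul_sum, Finset.mul_sum]
      refine Finset.sum_congr rfl fun k _ => ?_
      rw [Finset.sum_eq_single i]
      · rw [sr_self, mul_one, H.symm k i]
        have := H.car k i
        linear_combination (x k) * this
      · intro b _ hb; rw [sr_ne hb, mul_zero]
      · intro hj; exact absurd (Finset.mem_univ i) hj
    have h5 : 2 * (2 * form cs h x (sr i)) = 2 * (bf S x (sr i) * c0) := by
      rw [h2]
      calc 2 * (pairing A i x * form cs h (sr i) (sr i)) = pairing A i x * (form cs h (sr i) (sr i) * 2) := by ring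
        _ = pairing A i x * (c0 * S i i) := by rw [h3]
        _ = (S i i * pairing A i x) * c0 := by ring
        _ = (2 * bf S x (sr i)) * c0 := by rw [h4]
        _ = _ := by ring
    exact mul_left_cancel₀ two_ne_zero h5
  have h2 : ∀ s : Finset I, 2 * form cs h x (∑ k ∈ s, y k • sr k) = bf S x (∑ k ∈ s, y k • sr k) * c0 := by
    classical
    intro s
    induction s using Finset.induction_on with
    | empty => rw [Finset.sum_empty, form_zero_right, map_zero, mul_zero, zero_mul]
    | insert a s ha ih =>
      rw [Finset.sum_insert ha, form_add_right, form_smul_right, map_add, map_smul, smul_eq_mul, mul_add, ih, add_mul]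
      have := h1 a
      linear_combination (y a) * this
  have h3 := h2 Finset.univ
  rwa [← eq_sum_sr y] at h3

variable [Finite W]

/-- **The form.** -/
theorem frmS (hspan : ∀ i, ∃ L : List (I → ℤ), (∀ y ∈ L, IsRoot cs h y ∧ bf S y y = 2) ∧ L.sum = sr i) :
    FrmS cs h (bf S) fun x => IsRoot cs h x ∧ bf S x x = 2 := by
  have := Fintype.ofFinite W
  have hc0 : 0 < form cs h (sr s0) (sr s0) := form_pos cs h (isRoot_sr cs h s0).ne_zero
  have hinv : ∀ (w : W) x y, bf S (rep cs h w x) (rep cs h w y) = bf S x y := by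
    intro w x y
    have h1 := H.form_eq cs h x y
    have h2 := H.form_eq cs h (rep cs h w x) (rep cs h w y)
    rw [form_rep, h1] at h2
    exact (mul_right_cancel₀ hc0.ne' h2).symm
  refine ⟨fun x y => ?_, fun x hx => ?_, hinv, fun x hx => hx.1, fun w x hx => ⟨hx.1.act w, by rw [hinv]; exact hx.2⟩,
    fun x hx => hx.2, fun x y hy => ?_, hspan⟩
  · have h1 := H.form_eq cs h x y
    have h2 := H.form_eq cs h y x
    rw [form_comm, h1] at h2
    exact mul_right_cancel₀ hc0.ne' h2
  · have h1 := H.form_eq cs h x x
    have h2 := form_pos cs h hx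
    by_contra hcon
    push Not at hcon
    nlinarith
  · have h1 := H.form_eq cs h x y
    have h2 := H.form_eq cs h y y
    have h3 := two_form_cpr cs h x hy
    have h4 : (2 * bf S x y) * form cs h (sr s0) (sr s0) =
        (bf S y y * Cfsg.Agent.Nodes.Coroot.cpr cs h x y) * form cs h (sr s0) (sr s0) := by
      calc (2 * bf S x y) * form cs h (sr s0) (sr s0) = 2 * (bf S x y * form cs h (sr s0) (sr s0)) := by ring
        _ = 2 * (2 * form cs h x y) := by rw [h1]
        _ = 2 * (Cfsg.Agent.Nodes.Coroot.cpr cs h x y * form cs h y y) := by rw [h3]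
        _ = Cfsg.Agent.Nodes.Coroot.cpr cs h x y * (2 * form cs h y y) := by ring
        _ = Cfsg.Agent.Nodes.Coroot.cpr cs h x y * (bf S y y * form cs h (sr s0) (sr s0)) := by rw [h2]
        _ = _ := by ring
    exact mul_right_cancel₀ hc0.ne' h4

/-- roots of the same length as the simple root `i0` are conjugate to it -/
theorem conj (i0 : I) (hconj : ∀ j, S j j = S i0 i0 → ∃ w : W, rep cs h w (sr j) = sr i0)
    {a : I → ℤ} (ha : IsRoot cs h a) (hn : bf S a a = S i0 i0)
    (hinv : ∀ (w : W) x y, bf S (rep cs h w x) (rep cs h w y) = bf S x y) :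
    ∃ w : W, rep cs h w a = sr i0 := by
  obtain ⟨w, j, rfl⟩ := ha
  rw [hinv, bf_sr] at hn
  obtain ⟨w', hw'⟩ := hconj j hn
  exact ⟨w' * w⁻¹, by rw [rep_mul_apply, rep_inv_apply, hw']⟩

end SymC

end Cfsg.Agent.H897.T5FormS
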